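import Cfsg.Agent.H275.Heis
import Cfsg.Agent.H275.GLTwoFix
set_option linter.all false

-- part: H275/Planes
section
set_option autoImplicit false
set_option linter.unusedSectionVars false

/-!
# Elementary abelian planes in an extraspecial Sylow subgroup of order `p³` and exponent `p`
-/

namespace Cfsg.Agent.H275.Planes

open Matrix Cfsg.Agent.H275.Heis Cfsg.Agent.H275.GLTwoFix

section RelSec

variable {G : Type*} [Group G] {p : ℕ} [hp : Fact p.Prime]

/-- The element with the given coordinates. -/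
def E (z a : G) (v : Fin 2 → ZMod p) : G := pw z (v 0) * pw a (v 1)

/-- Conjugation by `g` acts on the plane generated by `z`, `a` by the matrix `M`. -/
def Rel (z a g : G) (M : Matrix (Fin 2) (Fin 2) (ZMod p)) : Prop :=
  ∀ v : Fin 2 → ZMod p, g * E z a v * g⁻¹ = E z a (M *ᵥ v)

variable {z a : G} (hz : z ^ p = 1) (ha : a ^ p = 1) (hza : Commute z a)

include hz ha hza in
theorem E_add (v w : Fin 2 → ZMod p) : E z a (v + w) = E z a v * E z a w := by
  unfold E
  rw [Pi.add_apply, Pi.add_apply, pw_add hz, pw_add ha]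
  have h1 : Commute (pw z (w 0)) (pw a (v 1)) := pw_commute hza _ _
  calc pw z (v 0) * pw z (w 0) * (pw a (v 1) * pw a (w 1))
      = pw z (v 0) * (pw z (w 0) * pw a (v 1)) * pw a (w 1) := by group
    _ = pw z (v 0) * (pw a (v 1) * pw z (w 0)) * pw a (w 1) := by rw [h1.eq]
    _ = _ := by group

theorem E_zero : E z a (0 : Fin 2 → ZMod p) = 1 := by
  unfold E
  rw [Pi.zero_apply, Pi.zero_apply, pw_zero, pw_zero, one_mul]

include hz ha hza in
theorem pw_E (v : Fin 2 → ZMod p) (k : ZMod p) : pw (E z a v) k = E z a (k • v) := by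
  unfold E
  rw [mul_pw (pw_commute hza _ _), ← pw_mul hz, ← pw_mul ha]
  simp only [Pi.smul_apply, smul_eq_mul, mul_comm k]

theorem E_z : E z a (![1, 0] : Fin 2 → ZMod p) = z := by
  unfold E
  simp [pw_one, pw_zero]

theorem E_a : E z a (![0, 1] : Fin 2 → ZMod p) = a := by
  unfold E
  simp [pw_one, pw_zero]

include hz ha hza in
theorem rel_mk {g : G} {M : Matrix (Fin 2) (Fin 2) (ZMod p)} (h0 : g * z * g⁻¹ = E z a ![M 0 0, M 1 0])
    (h1 : g * a * g⁻¹ = E z a ![M 0 1, M 1 1]) : Rel z a g M := by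
  intro v
  have h2 : g * E z a v * g⁻¹ = pw (g * z * g⁻¹) (v 0) * pw (g * a * g⁻¹) (v 1) := by
    rw [← conj_pw, ← conj_pw]
    unfold E
    group
  rw [h2, h0, h1, pw_E hz ha hza, pw_E hz ha hza, ← E_add hz ha hza]
  congr 1
  ext i
  fin_cases i <;> simp [Matrix.mulVec, dotProduct, Fin.sum_univ_two] <;> ring

theorem rel_mul {g h : G} {M N : Matrix (Fin 2) (Fin 2) (ZMod p)} (hg : Rel z a g M) (hh : Rel z a h N) :
    Rel z a (g * h) (M * N) := by
  intro v
  have h1 : g * h * E z a v * (g * h)⁻¹ = g * (h * E z a v * h⁻¹) * g⁻¹ := by group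
  rw [h1, hh, hg, Matrix.mulVec_mulVec]

theorem rel_one : Rel z a (1 : G) (1 : Matrix (Fin 2) (Fin 2) (ZMod p)) := by
  intro v
  rw [Matrix.one_mulVec]; group

theorem rel_inv {g : G} {M N : Matrix (Fin 2) (Fin 2) (ZMod p)} (hg : Rel z a g M) (hMN : M * N = 1) :
    Rel z a g⁻¹ N := by
  intro v
  have h1 := hg (N *ᵥ v)
  rw [Matrix.mulVec_mulVec, hMN, Matrix.one_mulVec] at h1
  rw [← h1]; group

/-- The upper unitriangular matrices. -/
def U (t : ZMod p) : Matrix (Fin 2) (Fin 2) (ZMod p) := !![1, t; 0, 1]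
/-- The lower unitriangular matrices. -/
def W (t : ZMod p) : Matrix (Fin 2) (Fin 2) (ZMod p) := !![1, 0; t, 1]

theorem U_mul (s t : ZMod p) : U s * U t = U (s + t) := by
  ext i j
  fin_cases i <;> fin_cases j <;> simp [U, Matrix.mul_apply, Fin.sum_univ_two, add_comm]

theorem W_mul (s t : ZMod p) : W s * W t = W (s + t) := by
  ext i j
  fin_cases i <;> fin_cases j <;> simp [W, Matrix.mul_apply, Fin.sum_univ_two, add_comm]

theorem U_zero : U (0 : ZMod p) = 1 := by
  ext i j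
  fin_cases i <;> fin_cases j <;> simp [U]

theorem W_zero : W (0 : ZMod p) = 1 := by
  ext i j
  fin_cases i <;> fin_cases j <;> simp [W]

/-- The diagonal element from the transvections. -/
theorem exists_diag (hU : ∀ t : ZMod p, ∃ g : G, Rel z a g (U t)) (hW : ∀ t : ZMod p, ∃ g : G, Rel z a g (W t))
    {l m : ZMod p} (hlm : l * m = 1) : ∃ g : G, Rel z a g !![l, 0; 0, m] := by
  obtain ⟨g1, h1⟩ := hU l
  obtain ⟨g2, h2⟩ := hW (-m)
  obtain ⟨g3, h3⟩ := hU (-1)
  obtain ⟨g4, h4⟩ := hW 1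
  refine ⟨g1 * g2 * g1 * (g3 * g4 * g3), ?_⟩
  have h5 := rel_mul (rel_mul (rel_mul h1 h2) h1) (rel_mul (rel_mul h3 h4) h3)
  have hml : m * l = 1 := by rw [mul_comm]; exact hlm
  have h6 : U l * W (-m) * U l * (U (-1 : ZMod p) * W 1 * U (-1)) = !![l, 0; 0, m] := by
    ext i j
    fin_cases i <;> fin_cases j <;> simp [U, W, Matrix.mul_apply, Fin.sum_univ_two, hlm, hml]
  rw [h6] at h5
  exact h5

/-- The stabilizer of the chain `1 < ⟨z⟩ < ⟨z, a⟩`. -/
def chainStab (p : ℕ) [Fact p.Prime] (z a : G) : Subgroup G where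
  carrier := {h | ∃ t : ZMod p, Rel z a h (U t)}
  one_mem' := ⟨0, by rw [U_zero]; exact rel_one⟩
  mul_mem' := by
    rintro g h ⟨s, hs⟩ ⟨t, ht⟩
    exact ⟨s + t, by rw [← U_mul]; exact rel_mul hs ht⟩
  inv_mem' := by
    rintro g ⟨s, hs⟩
    exact ⟨-s, rel_inv hs (by rw [U_mul, add_neg_cancel, U_zero])⟩

theorem mem_chainStab {h : G} : h ∈ chainStab p z a ↔ ∃ t : ZMod p, Rel z a h (U t) := Iff.rfl

/-- Moving a diagonal element into the normalizer of the Sylow subgroup. -/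
theorem exists_normalizer [Finite G] (P : Sylow p G) (hP : (P : Subgroup G) ≤ chainStab p z a)
    {l m : ZMod p} (hlm : l * m = 1) (hex : ∃ g : G, Rel z a g !![l, 0; 0, m]) :
    ∃ n ∈ Subgroup.normalizer ((P : Subgroup G) : Set G), ∃ j : ZMod p, Rel z a n !![l, j; 0, m] := by
  obtain ⟨g, hg⟩ := hex
  have hml : m * l = 1 := by rw [mul_comm]; exact hlm
  have hginv : Rel z a g⁻¹ !![m, 0; 0, l] := by
    apply rel_inv hg
    ext i j
    fin_cases i <;> fin_cases j <;> simp [Matrix.mul_apply, Fin.sum_univ_two, hlm, hml]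
  have hgP : ((g • P : Sylow p G) : Subgroup G) ≤ chainStab p z a := by
    intro x hx
    rw [Sylow.coe_subgroup_smul] at hx
    obtain ⟨y, hy, rfl⟩ := hx
    obtain ⟨t, ht⟩ := hP hy
    refine ⟨l * t * l, ?_⟩
    have h1 := rel_mul (rel_mul hg ht) hginv
    have h2 : !![l, 0; 0, m] * U t * !![m, 0; 0, l] = U (l * t * l) := by
      ext i j
      fin_cases i <;> fin_cases j <;> simp [U, Matrix.mul_apply, Fin.sum_univ_two, hlm, hml]
    rw [h2] at h1
    exact h1
  obtain ⟨d, hd⟩ := MulAction.exists_smul_eq (chainStab p z a) ((g • P : Sylow p G).subtype hgP) (P.subtype hP)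
  have hcoe : ∀ x : chainStab p z a, ((((MulAut.conj d)⁻¹ • x : chainStab p z a)) : G) =
      (MulAut.conj (d : G))⁻¹ • (x : G) := by
    intro x
    rw [← map_inv, ← map_inv, MulAut.smul_def, MulAut.smul_def, MulAut.conj_apply, MulAut.conj_apply]
    rfl
  have hsub : (((d : G) • (g • P) : Sylow p G) : Subgroup G) ≤ (P : Subgroup G) := by
    intro x hx
    rw [Sylow.coe_subgroup_smul, Subgroup.mem_pointwise_smul_iff_inv_smul_mem] at hx
    have hx' := hgP hx
    have h3 : x = (d : G) * ((MulAut.conj (d : G))⁻¹ • x) * (d : G)⁻¹ := by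
      rw [← map_inv, MulAut.smul_def, MulAut.conj_apply]; group
    have hxD : x ∈ chainStab p z a := by
      rw [h3]
      exact mul_mem (mul_mem d.2 hx') (inv_mem d.2)
    have h5 : (⟨x, hxD⟩ : chainStab p z a) ∈
        ((d • ((g • P : Sylow p G).subtype hgP) : Sylow p (chainStab p z a)) : Subgroup (chainStab p z a)) := by
      rw [Sylow.coe_subgroup_smul, Subgroup.mem_pointwise_smul_iff_inv_smul_mem, Sylow.coe_subtype,
        Subgroup.mem_subgroupOf, hcoe]
      exact hx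
    rw [hd, Sylow.coe_subtype, Subgroup.mem_subgroupOf] at h5
    exact h5
  have hdP : ((d : G) • (g • P) : Sylow p G) = P := by
    apply Sylow.ext
    apply Subgroup.eq_of_le_of_card_ge hsub
    exact (Sylow.card_eq_multiplicity P).le.trans (Sylow.card_eq_multiplicity _).ge
  refine ⟨(d : G) * g, ?_, ?_⟩
  · exact Sylow.smul_eq_iff_mem_normalizer.1 (by rw [mul_smul]; exact hdP)
  · obtain ⟨t, ht⟩ := d.2
    refine ⟨t * m, ?_⟩
    have h1 := rel_mul ht hg
    have h2 : U t * !![l, 0; 0, m] = !![l, t * m; 0, m] := by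
      ext i j
      fin_cases i <;> fin_cases j <;> simp [U, Matrix.mul_apply, Fin.sum_univ_two]
    rw [h2] at h1
    exact h1

end RelSec

end Cfsg.Agent.H275.Planes
end

-- part: H275/PlanesMain
section
set_option autoImplicit false
set_option linter.unusedSectionVars false

/-!
# Extraspecial Sylow subgroups of order `p³` and exponent `p`: bounds on `p`
-/

namespace Cfsg.Agent.H275.PlanesMain

open Matrix Cfsg.Agent.H275.Heis Cfsg.Agent.H275.GLTwoFix Cfsg.Agent.H275.Planes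

variable {G : Type*} [Group G] [Finite G] {p : ℕ} [hp : Fact p.Prime] (P : Sylow p G) (D : HData p P)

/-- The group induced by the normalizer of `P` on `P / Z(P)`. -/
noncomputable def LL : Subgroup (GL (Fin 2) (ZMod p)) :=
  (D.rep.comp (P : Subgroup G).normalizerMonoidHom).range

theorem not_dvd_card_LL : ¬ p ∣ Nat.card (LL P D) := by
  unfold LL
  rw [← Subgroup.index_ker]
  intro h
  have h1 : (P : Subgroup G).subgroupOf (Subgroup.normalizer ((P : Subgroup G) : Set G)) ≤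
      (D.rep.comp (P : Subgroup G).normalizerMonoidHom).ker := by
    rintro ⟨x, hxN⟩ hx
    rw [Subgroup.mem_subgroupOf] at hx
    rw [MonoidHom.mem_ker, MonoidHom.comp_apply]
    have h2 : (P : Subgroup G).normalizerMonoidHom ⟨x, hxN⟩ = MulAut.conj (⟨x, hx⟩ : P) := by
      ext w
      rfl
    rw [h2, D.rep_conj]
  have h2 := h.trans (Subgroup.index_dvd_of_le h1)
  have h3 := Subgroup.relIndex_mul_index (H := (P : Subgroup G))
    (K := Subgroup.normalizer ((P : Subgroup G) : Set G)) Subgroup.le_normalizer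
  apply P.not_dvd_index
  rw [← h3]
  exact h2.mul_right _

theorem coe_pw (x : (P : Subgroup G)) (k : ZMod p) : ((pw x k : (P : Subgroup G)) : G) = pw (x : G) k :=
  map_pw (P : Subgroup G).subtype x k

theorem coe_pow_p (D : HData p P) (x : P) : (x : G) ^ p = 1 := by
  have := congrArg Subtype.val (D.pow_p x)
  exact this

theorem coe_commute (a : P) : Commute (D.z : G) (a : G) := congrArg Subtype.val (D.commute_z a).eq

theorem le_chainStab (a : P) : (P : Subgroup G) ≤ chainStab p (D.z : G) (a : G) := by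
  intro w hw
  refine ⟨D.c ⟨w, hw⟩ a, ?_⟩
  apply rel_mk (coe_pow_p P D _) (coe_pow_p P D _) (coe_commute P D a)
  · have h1 : (![U (D.c ⟨w, hw⟩ a) 0 0, U (D.c ⟨w, hw⟩ a) 1 0] : Fin 2 → ZMod p) = ![1, 0] := by
      ext i
      fin_cases i <;> simp [U]
    rw [h1, E_z]
    have := (coe_commute P D ⟨w, hw⟩).eq
    simp only at this
    rw [← this]; group
  · have h1 : (![U (D.c ⟨w, hw⟩ a) 0 1, U (D.c ⟨w, hw⟩ a) 1 1] : Fin 2 → ZMod p) = ![D.c ⟨w, hw⟩ a, 1] := by
      ext i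
      fin_cases i <;> simp [U]
    rw [h1]
    have h2 := congrArg (fun t : P => (t : G)) (D.conj_eq ⟨w, hw⟩ a)
    simp only [Subgroup.coe_mul, Subgroup.coe_inv] at h2
    rw [h2, coe_pw]
    unfold E
    simp [pw_one]

theorem exists_in_LL (a : P) {lam : (ZMod p)ˣ}
    (hex : ∃ g : G, Rel (D.z : G) (a : G) g !![(lam : ZMod p), 0; 0, ((lam⁻¹ : (ZMod p)ˣ) : ZMod p)]) :
    ∃ M ∈ LL P D, (M : Matrix (Fin 2) (Fin 2) (ZMod p)) *ᵥ D.pi a = ((lam⁻¹ : (ZMod p)ˣ) : ZMod p) • D.pi a ∧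
      (M : Matrix (Fin 2) (Fin 2) (ZMod p)).det = lam := by
  obtain ⟨n, hn, j, hrel⟩ := exists_normalizer P (le_chainStab P D a) (Units.mul_inv lam) hex
  set φ : MulAut P := (P : Subgroup G).normalizerMonoidHom ⟨n, hn⟩ with hφ
  have hφw : ∀ w : P, ((φ w : P) : G) = n * (w : G) * n⁻¹ := fun w => rfl
  refine ⟨D.rep φ, ⟨⟨n, hn⟩, rfl⟩, ?_, ?_⟩
  · rw [D.rep_mulVec]
    have h1 := hrel ![0, 1]
    rw [E_a] at h1
    have h2 : (!![(lam : ZMod p), j; 0, ((lam⁻¹ : (ZMod p)ˣ) : ZMod p)] *ᵥ ![0, 1] : Fin 2 → ZMod p) =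
        ![j, ((lam⁻¹ : (ZMod p)ˣ) : ZMod p)] := by
      generalize ((lam⁻¹ : (ZMod p)ˣ) : ZMod p) = m
      ext i
      fin_cases i <;> simp [Matrix.mulVec, dotProduct, Fin.sum_univ_two]
    rw [h2] at h1
    have h3 : φ a = pw D.z j * pw a ((lam⁻¹ : (ZMod p)ˣ) : ZMod p) := by
      apply Subtype.ext
      rw [hφw, h1, Subgroup.coe_mul, coe_pw, coe_pw]
      rfl
    rw [h3, D.pi_mul, D.pi_pw, D.pi_pw, D.pi_eq_zero_iff.2 D.z_mem, smul_zero, zero_add]
  · have h1 := hrel ![1, 0]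
    rw [E_z] at h1
    have h2 : (!![(lam : ZMod p), j; 0, ((lam⁻¹ : (ZMod p)ˣ) : ZMod p)] *ᵥ ![1, 0] : Fin 2 → ZMod p) =
        ![(lam : ZMod p), 0] := by
      generalize ((lam⁻¹ : (ZMod p)ˣ) : ZMod p) = m
      ext i
      fin_cases i <;> simp [Matrix.mulVec, dotProduct, Fin.sum_univ_two]
    rw [h2] at h1
    have h3 : φ D.z = pw D.z (lam : ZMod p) := by
      apply Subtype.ext
      rw [hφw, h1, coe_pw]
      unfold E
      simp [pw_zero]
    rw [D.rep_det φ, pw_inj (D.pow_p _) D.z_ne] at h3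
    exact h3

/-- **Three planes**. -/
theorem three (hp2 : p ≠ 2) (a : Fin 3 → P) (ha : ∀ i, D.pi (a i) ≠ 0)
    (hdist : ∀ i j, i ≠ j → ∀ c : ZMod p, c • D.pi (a j) ≠ D.pi (a i))
    (hex : ∀ i, ∀ lam : (ZMod p)ˣ, ∃ g : G, Rel (D.z : G) (a i : G) g
      !![(lam : ZMod p), 0; 0, ((lam⁻¹ : (ZMod p)ˣ) : ZMod p)]) : p ≤ 13 ∧ p ≠ 11 := by
  obtain ⟨lam, hlam⟩ := IsCyclic.exists_generator (α := (ZMod p)ˣ)
  exact three_lines hp2 (LL P D) (not_dvd_card_LL P D) lam hlam (fun i => D.pi (a i)) ha hdist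
    (fun i => exists_in_LL P D (a i) (hex i lam))

/-- **Seven planes**. -/
theorem seven (hp2 : p ≠ 2) (a : Fin 7 → P) (ha : ∀ i, D.pi (a i) ≠ 0)
    (hdist : ∀ i j, i ≠ j → ∀ c : ZMod p, c • D.pi (a j) ≠ D.pi (a i))
    (hex : ∀ i, ∀ lam : (ZMod p)ˣ, ∃ g : G, Rel (D.z : G) (a i : G) g
      !![(lam : ZMod p), 0; 0, ((lam⁻¹ : (ZMod p)ˣ) : ZMod p)]) : p ≠ 13 := by
  obtain ⟨lam, hlam⟩ := IsCyclic.exists_generator (α := (ZMod p)ˣ)
  exact seven_lines hp2 (LL P D) (not_dvd_card_LL P D) lam hlam (fun i => D.pi (a i)) ha hdist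
    (fun i => exists_in_LL P D (a i) (hex i lam))

/-- The elements of `P` induce all upper unitriangular matrices on a plane. -/
theorem exists_U (a : P) (ha : D.pi a ≠ 0) (t : ZMod p) : ∃ g ∈ (P : Subgroup G), Rel (D.z : G) (a : G) g (U t) := by
  -- some element does not commute with `a`
  have hnc : ∃ w : P, D.c w a ≠ 0 := by
    by_contra hcon
    push Not at hcon
    apply ha
    rw [D.pi_eq_zero_iff, Subgroup.mem_center_iff]
    intro w
    exact D.c_eq_zero_iff.1 (hcon w)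
  obtain ⟨w, hw⟩ := hnc
  set u := pw w (t / D.c w a) with hu
  refine ⟨u, u.2, ?_⟩
  obtain ⟨s, hs⟩ := le_chainStab P D a u.2
  have h1 := hs ![0, 1]
  have h2 := congrArg (fun t : P => (t : G)) (D.conj_eq u a)
  simp only [Subgroup.coe_mul, Subgroup.coe_inv] at h2
  rw [E_a, h2, coe_pw] at h1
  have h3 : (U s *ᵥ ![0, 1] : Fin 2 → ZMod p) = ![s, 1] := by
    ext i
    fin_cases i <;> simp [U, Matrix.mulVec, dotProduct, Fin.sum_univ_two]
  rw [h3] at h1
  unfold E at h1
  simp only [Matrix.cons_val_zero, Matrix.cons_val_one, pw_one] at h1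
  have h4 : D.c u a = t := by
    rw [hu, D.c_pw_left, div_mul_cancel₀ _ hw]
  have h5 := mul_right_cancel h1
  have hz1 : (D.z : G) ≠ 1 := fun hc => D.z_ne (Subtype.ext hc)
  rw [pw_inj (coe_pow_p P D _) hz1, h4] at h5
  rw [h5]
  exact hs

end Cfsg.Agent.H275.PlanesMain
end
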