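import Mathlib
import Cfsg.Prelude.Def_SylowChains
set_option linter.all false

set_option autoImplicit false

/-!
# Sylow chains and strongly `p`-embedded subgroups

`chain_iff`: chain-connectedness is the connectedness of the graph on Sylow `p`-subgroups.
`SE p H`: the classical strongly `p`-embedded condition; its basic consequences.
-/

namespace Cfsg.Agent.H275.SylowChain

variable {G : Type*} [Group G]

/-- Two Sylow `p`-subgroups meet nontrivially. -/
def Meets (p : ℕ) (S T : Sylow p G) : Prop := (S : Subgroup G) ⊓ (T : Subgroup G) ≠ ⊥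

theorem Meets.symm {p : ℕ} {S T : Sylow p G} (h : Meets p S T) : Meets p T S := by
  unfold Meets at *; rwa [inf_comm]

theorem reflTransGen_of_chain {α : Type*} {r : α → α → Prop} :
    ∀ (n : ℕ) (c : Fin (n + 1) → α), (∀ i : Fin n, r (c i.castSucc) (c i.succ)) →
      Relation.ReflTransGen r (c 0) (c (Fin.last n)) := by
  intro n
  induction n with
  | zero => intro c _; exact Relation.ReflTransGen.refl
  | succ n ih =>
    intro c hc
    have h1 := ih (fun i => c i.castSucc) (fun i => by
      have := hc i.castSucc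
      simpa using this)
    have h2 := hc (Fin.last n)
    have h3 : Relation.ReflTransGen r (c 0) (c (Fin.last n).castSucc) := by simpa using h1
    refine h3.tail ?_
    simpa using h2

theorem chain_of_reflTransGen {α : Type*} {r : α → α → Prop} {a b : α}
    (h : Relation.ReflTransGen r a b) :
    ∃ (n : ℕ) (c : Fin (n + 1) → α), c 0 = a ∧ c (Fin.last n) = b ∧
      ∀ i : Fin n, c i.castSucc ≠ c i.succ ∧ r (c i.castSucc) (c i.succ) := by
  induction h with
  | refl => exact ⟨0, fun _ => a, rfl, rfl, fun i => i.elim0⟩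
  | @tail b c' _ hbc ih =>
    obtain ⟨n, c, h0, hl, hc⟩ := ih
    by_cases hne : b = c'
    · subst hne
      exact ⟨n, c, h0, hl, hc⟩
    · refine ⟨n + 1, Fin.snoc c c', ?_, ?_, ?_⟩
      · have : (0 : Fin (n + 2)) = Fin.castSucc (0 : Fin (n + 1)) := rfl
        rw [this, Fin.snoc_castSucc, h0]
      · rw [Fin.snoc_last]
      · intro i
        refine Fin.lastCases ?_ (fun j => ?_) i
        · have h2 : (Fin.last n).succ = Fin.last (n + 1) := rfl
          rw [h2, Fin.snoc_last, Fin.snoc_castSucc, hl]
          exact ⟨hne, hbc⟩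
        · have h2 : (j.castSucc).succ = (j.succ).castSucc := rfl
          rw [h2, Fin.snoc_castSucc, Fin.snoc_castSucc]
          exact hc j

/-- Chain-connectedness is connectedness of the graph of nontrivial intersections. -/
theorem chain_iff (p : ℕ) (G : Type*) [Group G] :
    Cfsg.IsSylowChainConnected p G ↔ ∀ S T : Sylow p G, Relation.ReflTransGen (Meets p) S T := by
  constructor
  · intro h S T
    obtain ⟨n, c, h0, hl, -, hc⟩ := h S T
    rw [← h0, ← hl]
    exact reflTransGen_of_chain n c (fun i => (hc i).2)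
  · intro h S T
    by_cases hST : S = T
    · subst hST
      exact ⟨0, fun _ => S, rfl, rfl, fun _ => inf_le_left, fun i => i.elim0⟩
    by_cases hm : (S : Subgroup G) ⊓ (T : Subgroup G) = ⊥
    · obtain ⟨n, c, h0, hl, hc⟩ := chain_of_reflTransGen (h S T)
      refine ⟨n, c, h0, hl, fun i => by rw [hm]; exact bot_le, hc⟩
    · refine ⟨1, ![S, T], rfl, rfl, ?_, ?_⟩
      · intro i
        fin_cases i
        · exact inf_le_left
        · exact inf_le_right
      · intro i
        fin_cases i
        exact ⟨hST, hm⟩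

/-- The classical strongly `p`-embedded condition. -/
structure SE (p : ℕ) (H : Subgroup G) : Prop where
  ne_top : H ≠ ⊤
  dvd : p ∣ Nat.card H
  disj : ∀ g : G, g ∉ H → ¬ p ∣ Nat.card ↥(H ⊓ H.map (MulAut.conj g).toMonoidHom)

theorem mem_map_conj {H : Subgroup G} {g x : G} :
    x ∈ H.map (MulAut.conj g).toMonoidHom ↔ g⁻¹ * x * g ∈ H := by
  constructor
  · rintro ⟨h, hh, rfl⟩
    have : g⁻¹ * ((MulAut.conj g).toMonoidHom h) * g = h := by
      simp [MulAut.conj_apply]; group
    rwa [this]
  · intro h
    refine ⟨_, h, ?_⟩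
    simp [MulAut.conj_apply]; group

variable [Finite G] {p : ℕ} [hp : Fact p.Prime]

/-- A nontrivial subgroup of a `p`-group has order divisible by `p`. -/
theorem dvd_card_of_isPGroup {Q : Subgroup G} (hQ : IsPGroup p Q) (h1 : Q ≠ ⊥) : p ∣ Nat.card Q := by
  obtain ⟨n, hn⟩ := IsPGroup.iff_card.1 hQ
  rw [hn]
  rcases Nat.eq_zero_or_pos n with rfl | hn0
  · exfalso
    rw [pow_zero] at hn
    exact h1 (Subgroup.card_eq_one.1 hn)
  · exact dvd_pow_self p hn0.ne'

omit [Finite G] hp in
theorem ne_bot_of_dvd (hp1 : p ≠ 1) {Q : Subgroup G} (h : p ∣ Nat.card Q) : Q ≠ ⊥ := by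
  rintro rfl
  rw [Subgroup.card_bot] at h
  exact hp1 (Nat.dvd_one.1 h)

namespace SE

/-- If `X` has order divisible by `p`, `X ≤ H` and `X ≤ H^g`, then `g ∈ H`. -/
theorem mem_of_le {H : Subgroup G} (h : SE p H) {X : Subgroup G} (hX : p ∣ Nat.card X) (hXH : X ≤ H)
    {g : G} (hXg : X ≤ H.map (MulAut.conj g).toMonoidHom) : g ∈ H := by
  by_contra hg
  exact h.disj g hg (hX.trans (Subgroup.card_dvd_of_le (le_inf hXH hXg)))

/-- The normalizer of a subgroup of `H` of order divisible by `p` lies in `H`. -/
theorem normalizer_le {H : Subgroup G} (h : SE p H) {X : Subgroup G} (hX : p ∣ Nat.card X) (hXH : X ≤ H) :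
    Subgroup.normalizer (X : Set G) ≤ H := by
  intro g hg
  refine h.mem_of_le hX hXH (g := g) ?_
  intro x hx
  rw [mem_map_conj]
  have h1 := (Subgroup.mem_normalizer_iff'.1 hg (g⁻¹ * x)).2 (by simpa using hx)
  exact hXH h1

/-- The centralizer of an element of order `p` of `H` lies in `H`. -/
theorem centralizer_le {H : Subgroup G} (h : SE p H) {x : G} (hx : orderOf x = p) (hxH : x ∈ H) :
    Subgroup.centralizer {x} ≤ H := by
  have h1 : p ∣ Nat.card (Subgroup.zpowers x) := by rw [Nat.card_zpowers, hx]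
  refine le_trans ?_ (h.normalizer_le h1 (Subgroup.zpowers_le.2 hxH))
  intro g hg
  rw [Subgroup.mem_centralizer_singleton_iff] at hg
  rw [Subgroup.mem_normalizer_iff]
  intro y
  have hc : ∀ z ∈ Subgroup.zpowers x, g * z = z * g := by
    rintro z ⟨n, rfl⟩
    have : Commute g (x ^ n) := (show Commute g x from hg).zpow_right n
    exact this
  constructor
  · intro hy
    rw [hc y hy]; simpa using hy
  · intro hy
    have h2 := hc _ hy
    have h3 : g * y * g⁻¹ = y := by
      have h4 : g * (g * y * g⁻¹) = g * y := by rw [h2]; group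
      exact mul_left_cancel h4
    rwa [h3] at hy

/-- A Sylow subgroup that meets `H` nontrivially lies in `H`. -/
theorem sylow_le {H : Subgroup G} (h : SE p H) (T : Sylow p G) (hT : (T : Subgroup G) ⊓ H ≠ ⊥) :
    (T : Subgroup G) ≤ H := by
  have hTnb : (T : Subgroup G) ≠ ⊥ := by
    intro hb; rw [hb] at hT; exact hT (bot_inf_eq _)
  have : Nontrivial (T : Subgroup G) := (Subgroup.nontrivial_iff_ne_bot _).2 hTnb
  -- the centre of `T` lies in `H`
  have hdvd : p ∣ Nat.card ↥((T : Subgroup G) ⊓ H) :=
    dvd_card_of_isPGroup (T.isPGroup'.to_le inf_le_left) hT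
  have hcent : (Subgroup.center (T : Subgroup G)).map (T : Subgroup G).subtype ≤ H := by
    refine le_trans ?_ (h.normalizer_le hdvd inf_le_right)
    rintro _ ⟨z, hz, rfl⟩
    rw [Subgroup.mem_normalizer_iff]
    have hz' : ∀ y ∈ (T : Subgroup G), (z : G) * y = y * z := by
      intro y hy
      have := Subgroup.mem_center_iff.1 hz ⟨y, hy⟩
      exact (congrArg Subtype.val this).symm
    intro y
    constructor
    · intro hy
      have : (z : G) * y * (z : G)⁻¹ = y := by rw [hz' y hy.1]; group
      simpa [this] using hy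
    · intro hy
      have h2 := hz' _ hy.1
      have h3 : (z : G) * y * (z : G)⁻¹ = y := by
        have h4 : (z : G) * ((z : G) * y * (z : G)⁻¹) = (z : G) * y := by
          simp only [Subgroup.subtype_apply] at h2
          rw [h2]; group
        exact mul_left_cancel h4
      simpa [h3] using hy
  have hZ : Nontrivial (Subgroup.center (T : Subgroup G)) := T.isPGroup'.center_nontrivial
  have hZb : (Subgroup.center (T : Subgroup G)).map (T : Subgroup G).subtype ≠ ⊥ := by
    intro hb
    rw [Subgroup.map_eq_bot_iff_of_injective _ (Subgroup.subtype_injective _)] at hb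
    rw [hb] at hZ
    exact (not_subsingleton_iff_nontrivial.2 hZ) inferInstance
  have hZp : p ∣ Nat.card ((Subgroup.center (T : Subgroup G)).map (T : Subgroup G).subtype) :=
    dvd_card_of_isPGroup (T.isPGroup'.to_le (Subgroup.map_subtype_le _)) hZb
  refine le_trans ?_ (h.normalizer_le hZp hcent)
  intro t ht
  rw [Subgroup.mem_normalizer_iff]
  have hcom : ∀ y ∈ (Subgroup.center (T : Subgroup G)).map (T : Subgroup G).subtype, t * y = y * t := by
    rintro _ ⟨z, hz, rfl⟩
    have := Subgroup.mem_center_iff.1 hz ⟨t, ht⟩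
    exact congrArg Subtype.val this
  intro y
  constructor
  · intro hy
    have : t * y * t⁻¹ = y := by rw [hcom y hy]; group
    rwa [this]
  · intro hy
    have h2 := hcom _ hy
    have h3 : t * y * t⁻¹ = y := by
      have h4 : t * (t * y * t⁻¹) = t * y := by rw [h2]; group
      exact mul_left_cancel h4
    rwa [h3] at hy

/-- Some Sylow `p`-subgroup of `G` lies in `H`. -/
theorem exists_sylow_le {H : Subgroup G} (h : SE p H) : ∃ T : Sylow p G, (T : Subgroup G) ≤ H := by
  obtain ⟨P⟩ : Nonempty (Sylow p H) := inferInstance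
  have hP : IsPGroup p ((P : Subgroup H).map H.subtype) := P.isPGroup'.map _
  obtain ⟨T, hT⟩ := hP.exists_le_sylow
  refine ⟨T, h.sylow_le T ?_⟩
  have hPb : (P : Subgroup H) ≠ ⊥ := P.ne_bot_of_dvd_card h.dvd
  intro hb
  have h1 : (P : Subgroup H).map H.subtype ≤ (T : Subgroup G) ⊓ H := le_inf hT (Subgroup.map_subtype_le _)
  rw [hb, le_bot_iff, Subgroup.map_eq_bot_iff_of_injective _ (Subgroup.subtype_injective _)] at h1
  exact hPb h1

/-- A normal subgroup of order divisible by `p` does not lie in `H`. -/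
theorem not_le_of_normal {H : Subgroup G} (h : SE p H) (N : Subgroup G) [N.Normal] (hN : p ∣ Nat.card N) :
    ¬ N ≤ H := by
  intro hNH
  apply h.ne_top
  rw [eq_top_iff]
  have := h.normalizer_le hN hNH
  rwa [Subgroup.normalizer_eq_top] at this

end SE

/-- If `G` has a strongly `p`-embedded subgroup, then it is not chain-connected. -/
theorem not_chainConnected_of_se {H : Subgroup G} (h : SE p H) : ¬ Cfsg.IsSylowChainConnected p G := by
  rw [chain_iff]
  intro hc
  obtain ⟨T, hT⟩ := h.exists_sylow_le
  have hTb : (T : Subgroup G) ≠ ⊥ :=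
    T.ne_bot_of_dvd_card (h.dvd.trans (Subgroup.card_subgroup_dvd_card H))
  have hall : ∀ S : Sylow p G, (S : Subgroup G) ≤ H := by
    intro S
    have h1 := hc T S
    induction h1 with
    | refl => exact hT
    | @tail b c _ hbc ih =>
      apply h.sylow_le c
      intro hb
      apply hbc
      rw [eq_bot_iff, ← hb]
      exact le_inf inf_le_right (inf_le_left.trans ih)
  apply h.ne_top
  rw [eq_top_iff]
  intro g _
  refine h.mem_of_le (dvd_card_of_isPGroup T.isPGroup' hTb) hT ?_
  intro x hx
  rw [mem_map_conj]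
  have h2 := hall (g⁻¹ • T)
  apply h2
  rw [Sylow.coe_subgroup_smul, Subgroup.mem_pointwise_smul_iff_inv_smul_mem]
  simpa [MulAut.smul_def, MulAut.conj_apply, mul_assoc] using hx

/-- If `G` is not chain-connected, then it has a strongly `p`-embedded subgroup. -/
theorem exists_se_of_not (hc : ¬ Cfsg.IsSylowChainConnected p G) : ∃ H : Subgroup G, SE p H := by
  rw [chain_iff] at hc
  push Not at hc
  obtain ⟨S, T, hST⟩ := hc
  -- the action of `G` preserves the graph
  have hmeets : ∀ (g : G) (A B : Sylow p G), Meets p A B → Meets p (g • A) (g • B) := by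
    intro g A B hAB hb
    apply hAB
    rw [eq_bot_iff]
    intro x hx
    have h1 : g * x * g⁻¹ ∈ ((g • A : Sylow p G) : Subgroup G) ⊓ ((g • B : Sylow p G) : Subgroup G) := by
      constructor
      · rw [Sylow.coe_subgroup_smul]
        exact ⟨x, hx.1, by simp [MulAut.smul_def, MulAut.conj_apply]⟩
      · rw [Sylow.coe_subgroup_smul]
        exact ⟨x, hx.2, by simp [MulAut.smul_def, MulAut.conj_apply]⟩
    rw [hb, Subgroup.mem_bot] at h1
    rw [Subgroup.mem_bot]
    have h2 : x = g⁻¹ * (g * x * g⁻¹) * g := by group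
    rw [h2, h1]; group
  have hchain : ∀ (g : G) (A B : Sylow p G), Relation.ReflTransGen (Meets p) A B →
      Relation.ReflTransGen (Meets p) (g • A) (g • B) := by
    intro g A B hAB
    induction hAB with
    | refl => exact Relation.ReflTransGen.refl
    | tail _ h ih => exact ih.tail (hmeets g _ _ h)
  have hsymm : ∀ (A B : Sylow p G), Relation.ReflTransGen (Meets p) A B →
      Relation.ReflTransGen (Meets p) B A := by
    intro A B hAB
    induction hAB with
    | refl => exact Relation.ReflTransGen.refl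
    | tail _ h ih => exact Relation.ReflTransGen.head h.symm ih
  let H : Subgroup G :=
    { carrier := {g | Relation.ReflTransGen (Meets p) S (g • S)}
      one_mem' := by simp only [Set.mem_ofPred_eq, one_smul]; exact Relation.ReflTransGen.refl
      mul_mem' := by
        intro a b ha hb
        simp only [Set.mem_ofPred_eq] at *
        rw [mul_smul]
        exact ha.trans (hchain a _ _ hb)
      inv_mem' := by
        intro a ha
        simp only [Set.mem_ofPred_eq] at *
        have := hchain a⁻¹ _ _ ha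
        rw [inv_smul_smul] at this
        exact hsymm _ _ this }
  have hmem : ∀ g : G, g ∈ H ↔ Relation.ReflTransGen (Meets p) S (g • S) := fun g => Iff.rfl
  have hSH : (S : Subgroup G) ≤ H := by
    intro x hx
    rw [hmem, Sylow.smul_eq_iff_mem_normalizer.2 (Subgroup.le_normalizer hx)]
  have hSb : (S : Subgroup G) ≠ ⊥ := by
    intro hb
    apply hST
    have h1 : Nat.card S = Nat.card T := by rw [S.card_eq_multiplicity, T.card_eq_multiplicity]
    have h2 : (T : Subgroup G) = ⊥ := by
      rw [← Subgroup.card_eq_one]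
      change Nat.card T = 1
      rw [← h1]
      change Nat.card (S : Subgroup G) = 1
      rw [hb, Subgroup.card_bot]
    have h3 : S = T := by ext1; rw [hb, h2]
    rw [h3]
  have hconj : ∀ x ∈ H, orderOf x = p → ∃ h ∈ H, x ∈ ((h • S : Sylow p G) : Subgroup G) := by
    intro x hx hxp
    have h1 : IsPGroup p (Subgroup.zpowers (⟨x, hx⟩ : H)) := by
      apply IsPGroup.of_card (n := 1)
      rw [Nat.card_zpowers, Subgroup.orderOf_mk, hxp, pow_one]
    obtain ⟨Q, hQ⟩ := h1.exists_le_sylow
    obtain ⟨h, hh⟩ := MulAction.exists_smul_eq H (S.subtype hSH) Q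
    refine ⟨h, h.2, ?_⟩
    have h2 : (⟨x, hx⟩ : H) ∈ ((h • (S.subtype hSH) : Sylow p H) : Subgroup H) := by
      rw [hh]; exact hQ (Subgroup.mem_zpowers _)
    rw [Sylow.coe_subgroup_smul] at h2 ⊢
    rw [Subgroup.mem_pointwise_smul_iff_inv_smul_mem] at h2 ⊢
    simpa [MulAut.smul_def, MulAut.conj_apply, Subgroup.mem_subgroupOf] using h2
  refine ⟨H, ⟨?_, ?_, ?_⟩⟩
  · intro htop
    obtain ⟨g, hg⟩ := MulAction.exists_smul_eq G S T
    apply hST
    rw [← hg, ← hmem, htop]
    exact Subgroup.mem_top _
  · exact (dvd_card_of_isPGroup S.isPGroup' hSb).trans (Subgroup.card_dvd_of_le hSH)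
  · intro g hg hdvd
    apply hg
    obtain ⟨⟨x, hxHg⟩, hxp⟩ := exists_prime_orderOf_dvd_card' p hdvd
    rw [Subgroup.orderOf_mk] at hxp
    obtain ⟨hxH, hxg⟩ := Subgroup.mem_inf.1 hxHg
    rw [mem_map_conj] at hxg
    obtain ⟨h1, h1H, hx1⟩ := hconj x hxH hxp
    obtain ⟨h2, h2H, hx2⟩ := hconj (g⁻¹ * x * g) hxg (by
      rw [← hxp]
      have h3 : g⁻¹ * x * g = MulAut.conj g⁻¹ x := by simp [MulAut.conj_apply]
      rw [h3]
      exact MulEquiv.orderOf_eq _ _)
    have hx3 : x ∈ ((g • (h2 • S) : Sylow p G) : Subgroup G) := by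
      rw [Sylow.coe_subgroup_smul, Subgroup.mem_pointwise_smul_iff_inv_smul_mem]
      simpa [MulAut.smul_def, MulAut.conj_apply, mul_assoc] using hx2
    have hx1' : x ≠ 1 := by
      rintro rfl
      rw [orderOf_one] at hxp
      exact hp.out.one_lt.ne hxp
    have hm : Meets p (h1 • S) (g • (h2 • S)) := by
      intro hb
      apply hx1'
      rw [← Subgroup.mem_bot, ← hb]
      exact ⟨hx1, hx3⟩
    rw [hmem]
    exact (((hmem h1).1 h1H).tail hm).trans (hsymm _ _ (hchain g _ _ ((hmem h2).1 h2H)))

/-- The classical criterion. -/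
theorem not_chainConnected_iff : ¬ Cfsg.IsSylowChainConnected p G ↔ ∃ H : Subgroup G, SE p H :=
  ⟨exists_se_of_not, fun ⟨_, h⟩ => not_chainConnected_of_se h⟩

end Cfsg.Agent.H275.SylowChain
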